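import Cfsg.Agent.H767.U6.Chain

/-!
# The bound of the centralizer by a chain of vectors: the check (helper767)
-/

set_option autoImplicit false
set_option linter.unusedSectionVars false
set_option maxRecDepth 100000

namespace Cfsg.Agent.H767.U6

open Cfsg Matrix Cfsg.Agent.SporadicA.PermTab Subgroup
open Cfsg.Agent.LieClassical.HermBasic Cfsg.Agent.ClassicalGeometry.PSUAutCount

/-! ### arithmetic of codes -/

/-- product of codes -/
def mulc (a b : ℕ) : ℕ := Nat.land (Nat.shiftRight 2625168384 (2 * (4 * a + b))) 3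

/-- entry of a vector -/
def cv (v r : ℕ) : ℕ := Nat.land (Nat.shiftRight v (2 * r)) 3

/-- entry of the product of a matrix and a vector -/
def rowc (P v r : ℕ) : ℕ :=
  Nat.xor (mulc (cd P r 0) (cv v 0)) (Nat.xor (mulc (cd P r 1) (cv v 1)) (Nat.xor (mulc (cd P r 2) (cv v 2))
    (Nat.xor (mulc (cd P r 3) (cv v 3)) (Nat.xor (mulc (cd P r 4) (cv v 4)) (mulc (cd P r 5) (cv v 5))))))

/-- `u = P v` -/
def stepB (P v u : ℕ) : Bool := allB (fun r => Nat.beq (cv u r) (rowc P v r)) 6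

/-- entry of the product of matrices -/
def entc (P Q r c : ℕ) : ℕ :=
  Nat.xor (mulc (cd P r 0) (cd Q 0 c)) (Nat.xor (mulc (cd P r 1) (cd Q 1 c)) (Nat.xor (mulc (cd P r 2) (cd Q 2 c))
    (Nat.xor (mulc (cd P r 3) (cd Q 3 c)) (Nat.xor (mulc (cd P r 4) (cd Q 4 c)) (mulc (cd P r 5) (cd Q 5 c))))))

/-- `P Q = R` -/
def mulB (P Q R : ℕ) : Bool := allB (fun r => allB (fun c => Nat.beq (cd R r c) (entc P Q r c)) 6) 6

/-- entry of `P Q^*` -/
def entH (P Q r c : ℕ) : ℕ :=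
  Nat.xor (mulc (cd P r 0) (mulc (cd Q c 0) (cd Q c 0))) (Nat.xor (mulc (cd P r 1) (mulc (cd Q c 1) (cd Q c 1)))
    (Nat.xor (mulc (cd P r 2) (mulc (cd Q c 2) (cd Q c 2))) (Nat.xor (mulc (cd P r 3) (mulc (cd Q c 3) (cd Q c 3)))
      (Nat.xor (mulc (cd P r 4) (mulc (cd Q c 4) (cd Q c 4))) (mulc (cd P r 5) (mulc (cd Q c 5) (cd Q c 5)))))))

/-- the columns of `P` are orthonormal: `P^T conj P = 1` is checked as `Q Q^* = 1` for the transpose; here `P P^* = 1` -/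
def uniB (P : ℕ) : Bool := allB (fun r => allB (fun c => Nat.beq (entH P P r c) (cond (Nat.beq r c) 1 0)) 6) 6

section field

variable {F : Type*} [Field F] {w : F}

theorem land3_lt (x : ℕ) : Nat.land x 3 < 4 := by
  have : Nat.land x 3 = x % 4 := Nat.and_two_pow_sub_one_eq_mod x 2
  omega

theorem cd_lt (P r c : ℕ) : cd P r c < 4 := land3_lt _
theorem cv_lt (v r : ℕ) : cv v r < 4 := land3_lt _
theorem mulc_lt (a b : ℕ) : mulc a b < 4 := land3_lt _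

theorem d4_eb {k : ℕ} (hk : k < 4) : d4 w k = eb w (tb k 0) (tb k 1) := by
  have h : Nat.land k 3 = k := by
    have : Nat.land k 3 = k % 4 := Nat.and_two_pow_sub_one_eq_mod k 2
    omega
  rw [← d4_land, h]

theorem xor_lt {a b : ℕ} (ha : a < 4) (hb : b < 4) : Nat.xor a b < 4 := Nat.xor_lt_two_pow (n := 2) ha hb

theorem d4_xor (h2 : (2 : F) = 0) {a b : ℕ} (ha : a < 4) (hb : b < 4) :
    d4 w (Nat.xor a b) = d4 w a + d4 w b := by
  rw [d4_eb ha, d4_eb hb, d4_eb (xor_lt ha hb), eb_add h2, tb_xor, tb_xor]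

theorem d4_mulc (h2 : (2 : F) = 0) (hw : w ^ 2 + w + 1 = 0) {a b : ℕ} (ha : a < 4) (hb : b < 4) :
    d4 w (mulc a b) = d4 w a * d4 w b := by
  rw [d4_eb ha, d4_eb hb, d4_eb (mulc_lt a b), eb_mul h2 hw]
  interval_cases a <;> interval_cases b <;> congr 1

theorem d4_inj (h2 : (2 : F) = 0) (hw : w ^ 2 + w + 1 = 0) {a b : ℕ} (ha : a < 4) (hb : b < 4)
    (h : d4 w a = d4 w b) : a = b := by
  rw [d4_eb ha, d4_eb hb] at h
  obtain ⟨h3, h4⟩ := eb_inj h2 hw h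
  interval_cases a <;> interval_cases b <;> first | rfl | (exfalso; revert h3 h4; decide)

theorem vec_cv (v : ℕ) (r : Fin 6) : vec w v r = d4 w (cv v r) := rfl

theorem row_eq (h2 : (2 : F) = 0) (hw : w ^ 2 + w + 1 = 0) (P v : ℕ) (r : Fin 6) :
    d4 w (rowc P v r) = (mt w P *ᵥ vec w v) r := by
  have m := fun c : ℕ => d4_mulc h2 hw (cd_lt P r c) (cv_lt v c)
  have l := fun c : ℕ => mulc_lt (cd P r c) (cv v c)
  unfold rowc
  rw [d4_xor h2 (l 0) (xor_lt (l 1) (xor_lt (l 2) (xor_lt (l 3) (xor_lt (l 4) (l 5))))),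
    d4_xor h2 (l 1) (xor_lt (l 2) (xor_lt (l 3) (xor_lt (l 4) (l 5)))),
    d4_xor h2 (l 2) (xor_lt (l 3) (xor_lt (l 4) (l 5))), d4_xor h2 (l 3) (xor_lt (l 4) (l 5)),
    d4_xor h2 (l 4) (l 5), m, m, m, m, m, m]
  show _ = ∑ c, mt w P r c * vec w v c
  rw [Fin.sum_univ_six]
  show _ = d4 w (cd P r 0) * d4 w (cv v 0) + d4 w (cd P r 1) * d4 w (cv v 1) + d4 w (cd P r 2) * d4 w (cv v 2) +
    d4 w (cd P r 3) * d4 w (cv v 3) + d4 w (cd P r 4) * d4 w (cv v 4) + d4 w (cd P r 5) * d4 w (cv v 5)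
  ring

theorem stepB_eq (h2 : (2 : F) = 0) (hw : w ^ 2 + w + 1 = 0) {P v u : ℕ} (h : stepB P v u = true) :
    vec w u = mt w P *ᵥ vec w v := by
  funext r
  rw [← row_eq h2 hw, vec_cv]
  exact congrArg _ (Nat.eq_of_beq_eq_true ((allB_iff _ _).1 h r r.2))

theorem ent_eq (h2 : (2 : F) = 0) (hw : w ^ 2 + w + 1 = 0) (P Q : ℕ) (r c : Fin 6) :
    d4 w (entc P Q r c) = (mt w P * mt w Q) r c := by
  have m := fun k : ℕ => d4_mulc h2 hw (cd_lt P r k) (cd_lt Q k c)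
  have l := fun k : ℕ => mulc_lt (cd P r k) (cd Q k c)
  unfold entc
  rw [d4_xor h2 (l 0) (xor_lt (l 1) (xor_lt (l 2) (xor_lt (l 3) (xor_lt (l 4) (l 5))))),
    d4_xor h2 (l 1) (xor_lt (l 2) (xor_lt (l 3) (xor_lt (l 4) (l 5)))),
    d4_xor h2 (l 2) (xor_lt (l 3) (xor_lt (l 4) (l 5))), d4_xor h2 (l 3) (xor_lt (l 4) (l 5)),
    d4_xor h2 (l 4) (l 5), m, m, m, m, m, m]
  rw [Matrix.mul_apply, Fin.sum_univ_six]
  show _ = d4 w (cd P r 0) * d4 w (cd Q 0 c) + d4 w (cd P r 1) * d4 w (cd Q 1 c) + d4 w (cd P r 2) * d4 w (cd Q 2 c) +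
    d4 w (cd P r 3) * d4 w (cd Q 3 c) + d4 w (cd P r 4) * d4 w (cd Q 4 c) + d4 w (cd P r 5) * d4 w (cd Q 5 c)
  ring

theorem mulB_eq (h2 : (2 : F) = 0) (hw : w ^ 2 + w + 1 = 0) {P Q R : ℕ} (h : mulB P Q R = true) :
    mt w P * mt w Q = mt w R := by
  ext r c
  rw [← ent_eq h2 hw]
  have h1 := Nat.eq_of_beq_eq_true ((allB_iff _ _).1 ((allB_iff _ _).1 h r r.2) c c.2)
  exact congrArg (d4 w) h1.symm

theorem uniB_eq (h2 : (2 : F) = 0) (hw : w ^ 2 + w + 1 = 0) {P : ℕ} (h : uniB P = true) (r c : Fin 6) :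
    ∑ k : Fin 6, mt w P r k * mt w P c k ^ 2 = if r = c then 1 else 0 := by
  have h1 := Nat.eq_of_beq_eq_true ((allB_iff _ _).1 ((allB_iff _ _).1 h r r.2) c c.2)
  have m := fun k : ℕ => d4_mulc h2 hw (cd_lt P r k) (mulc_lt (cd P c k) (cd P c k))
  have m' := fun k : ℕ => d4_mulc h2 hw (cd_lt P c k) (cd_lt P c k)
  have l := fun k : ℕ => mulc_lt (cd P r k) (mulc (cd P c k) (cd P c k))
  have h3 : d4 w (entH P P r c) = ∑ k : Fin 6, mt w P r k * mt w P c k ^ 2 := by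
    unfold entH
    rw [d4_xor h2 (l 0) (xor_lt (l 1) (xor_lt (l 2) (xor_lt (l 3) (xor_lt (l 4) (l 5))))),
      d4_xor h2 (l 1) (xor_lt (l 2) (xor_lt (l 3) (xor_lt (l 4) (l 5)))),
      d4_xor h2 (l 2) (xor_lt (l 3) (xor_lt (l 4) (l 5))), d4_xor h2 (l 3) (xor_lt (l 4) (l 5)),
      d4_xor h2 (l 4) (l 5), m, m, m, m, m, m, m', m', m', m', m', m']
    rw [Fin.sum_univ_six]
    show _ = d4 w (cd P r 0) * d4 w (cd P c 0) ^ 2 + d4 w (cd P r 1) * d4 w (cd P c 1) ^ 2 +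
      d4 w (cd P r 2) * d4 w (cd P c 2) ^ 2 + d4 w (cd P r 3) * d4 w (cd P c 3) ^ 2 +
      d4 w (cd P r 4) * d4 w (cd P c 4) ^ 2 + d4 w (cd P r 5) * d4 w (cd P c 5) ^ 2
    ring
  rw [← h3, h1]
  by_cases hrc : r = c
  · subst hrc
    rw [if_pos rfl]
    have : Nat.beq (r : ℕ) r = true := Nat.beq_refl _
    rw [this]
    rfl
  · rw [if_neg hrc]
    have : Nat.beq (r : ℕ) c = false := by
      rw [Bool.eq_false_iff]
      intro h4
      exact hrc (Fin.ext (Nat.eq_of_beq_eq_true h4))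
    rw [this]
    rfl

end field

end Cfsg.Agent.H767.U6
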