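import Cfsg.Agent.H767.U6.Tab

/-!
# The bound of the centralizer by a chain of vectors (helper767)
-/

set_option autoImplicit false
set_option linter.unusedSectionVars false
set_option maxRecDepth 100000

namespace Cfsg.Agent.H767.U6

open Cfsg Matrix Cfsg.Agent.SporadicA.PermTab
open Cfsg.Agent.LieClassical.HermBasic Cfsg.Agent.ClassicalGeometry.PSUAutCount

section field

variable {F : Type*} [Field F] {w : F}

theorem sq_add (h2 : (2 : F) = 0) (a b : F) : (a + b) ^ 2 = a ^ 2 + b ^ 2 := by linear_combination a * b * h2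

theorem comb_append (fs gs : List ((Fin 6 → F) → F)) (P : ℕ) (v : Fin 6 → F) :
    comb w (fs ++ gs) P v = comb w fs P v + comb w gs (Nat.shiftRight P (2 * fs.length)) v := by
  induction fs generalizing P with
  | nil => simp [comb]
  | cons f fs ih =>
    rw [List.cons_append, comb, comb, ih, add_assoc, List.length_cons]
    have h1 : Nat.shiftRight (Nat.shiftRight P 2) (2 * fs.length) = Nat.shiftRight P (2 * (fs.length + 1)) := by
      rw [mul_add, mul_one, add_comm]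
      exact (Nat.shiftRight_add P 2 (2 * fs.length)).symm
    rw [h1]

theorem herm_two (u v : Fin 6 → F) : hermForm 6 F 2 u v =
    u 0 * v 0 ^ 2 + u 1 * v 1 ^ 2 + u 2 * v 2 ^ 2 + u 3 * v 3 ^ 2 + u 4 * v 4 ^ 2 + u 5 * v 5 ^ 2 := by
  rw [herm_def, Fin.sum_univ_six]

/-- linear functionals -/
theorem comb_coords (P : ℕ) (v : Fin 6 → F) : comb w (coords F) P v = hermForm 6 F 2 v (vec w P) := by
  have e : ∀ k : Fin 6, vec w P k = d4 w (Nat.land (Nat.shiftRight P (2 * (k : ℕ))) 3) := fun k => rfl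
  rw [herm_two, e 0, e 1, e 2, e 3, e 4, e 5]
  unfold coords
  simp only [comb]
  have s : ∀ a b : ℕ, Nat.shiftRight (Nat.shiftRight P a) b = Nat.shiftRight P (a + b) :=
    fun a b => (Nat.shiftRight_add P a b).symm
  simp only [s]
  have s0 : Nat.shiftRight P (2 * ((0 : Fin 6) : ℕ)) = P := rfl
  rw [s0]
  show d4 w (Nat.land P 3) ^ 2 * v 0 + (d4 w (Nat.land (Nat.shiftRight P 2) 3) ^ 2 * v 1 +
    (d4 w (Nat.land (Nat.shiftRight P 4) 3) ^ 2 * v 2 + (d4 w (Nat.land (Nat.shiftRight P 6) 3) ^ 2 * v 3 +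
    (d4 w (Nat.land (Nat.shiftRight P 8) 3) ^ 2 * v 4 + (d4 w (Nat.land (Nat.shiftRight P 10) 3) ^ 2 * v 5 + 0))))) =
    v 0 * d4 w (Nat.land P 3) ^ 2 + v 1 * d4 w (Nat.land (Nat.shiftRight P 2) 3) ^ 2 +
    v 2 * d4 w (Nat.land (Nat.shiftRight P 4) 3) ^ 2 + v 3 * d4 w (Nat.land (Nat.shiftRight P 6) 3) ^ 2 +
    v 4 * d4 w (Nat.land (Nat.shiftRight P 8) 3) ^ 2 + v 5 * d4 w (Nat.land (Nat.shiftRight P 10) 3) ^ 2
  ring

theorem comb_row (P : ℕ) (f : (Fin 6 → F) → F) (v : Fin 6 → F) :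
    comb w ((coords F).map fun g => fun v => f v * g v ^ 2) P v = f v * (∑ c : Fin 6, d4 w (cd P 0 c) ^ 2 * v c ^ 2) := by
  rw [Fin.sum_univ_six]
  unfold coords
  simp only [List.map, comb]
  have s : ∀ a b : ℕ, Nat.shiftRight (Nat.shiftRight P a) b = Nat.shiftRight P (a + b) :=
    fun a b => (Nat.shiftRight_add P a b).symm
  simp only [s]
  show d4 w (Nat.land P 3) ^ 2 * (f v * v 0 ^ 2) + (d4 w (Nat.land (Nat.shiftRight P 2) 3) ^ 2 * (f v * v 1 ^ 2) +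
    (d4 w (Nat.land (Nat.shiftRight P 4) 3) ^ 2 * (f v * v 2 ^ 2) +
    (d4 w (Nat.land (Nat.shiftRight P 6) 3) ^ 2 * (f v * v 3 ^ 2) +
    (d4 w (Nat.land (Nat.shiftRight P 8) 3) ^ 2 * (f v * v 4 ^ 2) +
    (d4 w (Nat.land (Nat.shiftRight P 10) 3) ^ 2 * (f v * v 5 ^ 2) + 0))))) =
    f v * (d4 w (Nat.land P 3) ^ 2 * v 0 ^ 2 + d4 w (Nat.land (Nat.shiftRight P 2) 3) ^ 2 * v 1 ^ 2 +
    d4 w (Nat.land (Nat.shiftRight P 4) 3) ^ 2 * v 2 ^ 2 + d4 w (Nat.land (Nat.shiftRight P 6) 3) ^ 2 * v 3 ^ 2 +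
    d4 w (Nat.land (Nat.shiftRight P 8) 3) ^ 2 * v 4 ^ 2 + d4 w (Nat.land (Nat.shiftRight P 10) 3) ^ 2 * v 5 ^ 2)
  ring

theorem cd_shift (P j r c : ℕ) : cd (Nat.shiftRight P (12 * j)) r c = cd P (j + r) c := by
  unfold cd
  congr 1
  have s : Nat.shiftRight (Nat.shiftRight P (12 * j)) (2 * (6 * r + c)) =
      Nat.shiftRight P (12 * j + 2 * (6 * r + c)) := (Nat.shiftRight_add P _ _).symm
  rw [s]
  congr 1
  ring

/-- hermitian products with the image -/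
theorem comb_prods (h2 : (2 : F) = 0) (P : ℕ) (v : Fin 6 → F) :
    comb w (prods F) P v = hermForm 6 F 2 v (mt w P *ᵥ v) := by
  have hl : ∀ f : (Fin 6 → F) → F, ((coords F).map fun g => fun v : Fin 6 → F => f v * g v ^ 2).length = 6 := fun f => rfl
  have h1 : prods F = ((coords F).map fun g => fun v : Fin 6 → F => v 0 * g v ^ 2) ++
      (((coords F).map fun g => fun v : Fin 6 → F => v 1 * g v ^ 2) ++
      (((coords F).map fun g => fun v : Fin 6 → F => v 2 * g v ^ 2) ++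
      (((coords F).map fun g => fun v : Fin 6 → F => v 3 * g v ^ 2) ++
      (((coords F).map fun g => fun v : Fin 6 → F => v 4 * g v ^ 2) ++
      ((coords F).map fun g => fun v : Fin 6 → F => v 5 * g v ^ 2))))) := rfl
  have s : ∀ a b : ℕ, Nat.shiftRight (Nat.shiftRight P a) b = Nat.shiftRight P (a + b) :=
    fun a b => (Nat.shiftRight_add P a b).symm
  rw [h1, comb_append, comb_append, comb_append, comb_append, comb_append]
  rw [comb_row, comb_row, comb_row, comb_row, comb_row, comb_row, hl, hl, hl, hl, hl]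
  simp only [s]
  have hrow : ∀ r : Fin 6, (mt w P *ᵥ v) r ^ 2 = ∑ c : Fin 6, d4 w (cd P r c) ^ 2 * v c ^ 2 := by
    intro r
    show (∑ c, mt w P r c * v c) ^ 2 = _
    rw [Fin.sum_univ_six, Fin.sum_univ_six, sq_add h2, sq_add h2, sq_add h2, sq_add h2, sq_add h2]
    simp only [mul_pow, mt]
  rw [herm_two, hrow, hrow, hrow, hrow, hrow, hrow]
  have c1 : ∀ c : Fin 6, cd (Nat.shiftRight P (2 * 6)) 0 c = cd P ((1 : Fin 6) : ℕ) c := fun c => cd_shift P 1 0 c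
  have c2 : ∀ c : Fin 6, cd (Nat.shiftRight P (2 * 6 + 2 * 6)) 0 c = cd P ((2 : Fin 6) : ℕ) c := fun c => cd_shift P 2 0 c
  have c3 : ∀ c : Fin 6, cd (Nat.shiftRight P (2 * 6 + 2 * 6 + 2 * 6)) 0 c = cd P ((3 : Fin 6) : ℕ) c :=
    fun c => cd_shift P 3 0 c
  have c4 : ∀ c : Fin 6, cd (Nat.shiftRight P (2 * 6 + 2 * 6 + 2 * 6 + 2 * 6)) 0 c = cd P ((4 : Fin 6) : ℕ) c :=
    fun c => cd_shift P 4 0 c
  have c5 : ∀ c : Fin 6, cd (Nat.shiftRight P (2 * 6 + 2 * 6 + 2 * 6 + 2 * 6 + 2 * 6)) 0 c =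
    cd P ((5 : Fin 6) : ℕ) c := fun c => cd_shift P 5 0 c
  have c0 : ∀ c : Fin 6, cd P 0 c = cd P ((0 : Fin 6) : ℕ) c := fun c => rfl
  simp only [c1, c2, c3, c4, c5, c0]
  simp only [add_assoc]

/-- the tables of a matrix -/
theorem rep_mat (h2 : (2 : F) = 0) (hw : w ^ 2 + w + 1 = 0) (P : ℕ) :
    Rep w (accL ML P) (accH ML P) (fun v => hermForm 6 F 2 v (mt w P *ᵥ v)) := by
  intro n hn
  have h := rep_acc h2 hw (forall_ml h2 hw) P n hn
  rw [comb_prods h2] at h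
  exact h

/-- the tables of a vector -/
theorem rep_vec (h2 : (2 : F) = 0) (hw : w ^ 2 + w + 1 = 0) (u : ℕ) :
    Rep w (accL CO u) (accH CO u) (fun v => hermForm 6 F 2 v (vec w u)) := by
  intro n hn
  have h := rep_acc h2 hw (forall_co (F := F) (w := w)) u n hn
  rw [comb_coords] at h
  exact h

/-! ### surjectivity of `vec` -/

theorem d4_surj (h2 : (2 : F) = 0) (hw : w ^ 2 + w + 1 = 0) (hc : ∀ x : F, x ^ 4 = x) (a : F) :
    ∃ k < 4, d4 w k = a := by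
  have e : a * ((a - 1) * ((a - w) * (a - (w + 1)))) = 0 := by
    linear_combination hc a + a * (a - 1) * (-(w + 1) * a - 1) * h2 + a * (a - 1) * hw
  rcases mul_eq_zero.1 e with h | h
  · exact ⟨0, by norm_num, h.symm⟩
  · rcases mul_eq_zero.1 h with h | h
    · exact ⟨1, by norm_num, (sub_eq_zero.1 h).symm⟩
    · rcases mul_eq_zero.1 h with h | h
      · exact ⟨2, by norm_num, (sub_eq_zero.1 h).symm⟩
      · exact ⟨3, by norm_num, (sub_eq_zero.1 h).symm⟩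

theorem vec_surj (h2 : (2 : F) = 0) (hw : w ^ 2 + w + 1 = 0) (hc : ∀ x : F, x ^ 4 = x) (v : Fin 6 → F) :
    ∃ n < 4096, vec w n = v := by
  choose k hk hk2 using fun i => d4_surj h2 hw hc (v i)
  have l0 := hk 0
  have l1 := hk 1
  have l2 := hk 2
  have l3 := hk 3
  have l4 := hk 4
  have l5 := hk 5
  refine ⟨k 0 + 4 * k 1 + 16 * k 2 + 64 * k 3 + 256 * k 4 + 1024 * k 5, by omega, ?_⟩
  have h3 : ∀ x : ℕ, Nat.land x 3 = x % 4 := fun x => Nat.and_two_pow_sub_one_eq_mod x 2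
  have key : ∀ i : Fin 6, Nat.land (Nat.shiftRight (k 0 + 4 * k 1 + 16 * k 2 + 64 * k 3 + 256 * k 4 + 1024 * k 5)
      (2 * (i : ℕ))) 3 = k i := by
    intro i
    rw [h3]
    have h4 : Nat.shiftRight (k 0 + 4 * k 1 + 16 * k 2 + 64 * k 3 + 256 * k 4 + 1024 * k 5) (2 * (i : ℕ)) =
      (k 0 + 4 * k 1 + 16 * k 2 + 64 * k 3 + 256 * k 4 + 1024 * k 5) / 2 ^ (2 * (i : ℕ)) :=
      Nat.shiftRight_eq_div_pow _ _
    rw [h4]
    fin_cases i
    · show (k 0 + 4 * k 1 + 16 * k 2 + 64 * k 3 + 256 * k 4 + 1024 * k 5) / 1 % 4 = k 0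
      omega
    · show (k 0 + 4 * k 1 + 16 * k 2 + 64 * k 3 + 256 * k 4 + 1024 * k 5) / 4 % 4 = k 1
      omega
    · show (k 0 + 4 * k 1 + 16 * k 2 + 64 * k 3 + 256 * k 4 + 1024 * k 5) / 16 % 4 = k 2
      omega
    · show (k 0 + 4 * k 1 + 16 * k 2 + 64 * k 3 + 256 * k 4 + 1024 * k 5) / 64 % 4 = k 3
      omega
    · show (k 0 + 4 * k 1 + 16 * k 2 + 64 * k 3 + 256 * k 4 + 1024 * k 5) / 256 % 4 = k 4
      omega
    · show (k 0 + 4 * k 1 + 16 * k 2 + 64 * k 3 + 256 * k 4 + 1024 * k 5) / 1024 % 4 = k 5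
      omega
  funext i
  unfold vec
  rw [key, hk2]

end field

end Cfsg.Agent.H767.U6
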