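import Cfsg.Agent.H767.U6.Bound

/-!
# The bound of the centralizer by a chain of vectors: the theorem (helper767)
-/

set_option autoImplicit false
set_option linter.unusedSectionVars false
set_option maxRecDepth 100000

namespace Cfsg.Agent.H767.U6

open Cfsg Matrix Cfsg.Agent.SporadicA.PermTab Subgroup
open Cfsg.Agent.LieClassical.HermBasic Cfsg.Agent.ClassicalGeometry.PSUAutCount

/-! ### sets -/

/-- the numbers `n` where `T` has the same bit as in `v` -/
noncomputable def same (T v : ℕ) : ℕ := cond (tb T v) T (Nat.xor FULL T)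

theorem tb_same {T v n : ℕ} (hn : n < 4096) : tb (same T v) n = true ↔ tb T n = tb T v := by
  unfold same
  cases h : tb T v
  · rw [cond_false, tb_xor, tb_full hn, Bool.true_xor, Bool.not_eq_true']
  · rw [cond_true]

/-- the numbers in `S` where all tables have the same value as in `v` -/
noncomputable def SS (v S : ℕ) (Ts : List (ℕ × ℕ)) : ℕ :=
  List.rec S (fun t _ ih => Nat.land (Nat.land (same t.1 v) (same t.2 v)) ih) Ts

theorem tb_SS {v S n : ℕ} (hn : n < 4096) (Ts : List (ℕ × ℕ)) : tb (SS v S Ts) n = true ↔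
    tb S n = true ∧ ∀ t ∈ Ts, tb t.1 n = tb t.1 v ∧ tb t.2 n = tb t.2 v := by
  induction Ts with
  | nil => exact ⟨fun h => ⟨h, fun t ht => absurd ht (by simp)⟩, fun h => h.1⟩
  | cons t Ts ih =>
    have e : SS v S (t :: Ts) = Nat.land (Nat.land (same t.1 v) (same t.2 v)) (SS v S Ts) := rfl
    rw [e, tb_land, tb_land, Bool.and_eq_true, Bool.and_eq_true, tb_same hn, tb_same hn, ih]
    simp only [List.mem_cons, forall_eq_or_imp]
    tauto

/-- evaluate first -/
noncomputable def force (S : ℕ) (k : ℕ → Bool) : Bool := Nat.rec (k 0) (fun m _ => k (Nat.succ m)) S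

theorem force_eq (S : ℕ) (k : ℕ → Bool) : force S k = k S := by cases S <;> rfl

/-- the tables of the members of a list -/
noncomputable def withT (L : List (ℕ × ℕ)) (Ps : List ℕ) : (List (ℕ × ℕ) → Bool) → Bool :=
  List.rec (fun k => k []) (fun P _ ih k => force (accL L P) fun a => force (accH L P) fun b =>
    ih fun ts => k ((a, b) :: ts)) Ps

theorem withT_eq (L : List (ℕ × ℕ)) (Ps : List ℕ) (k : List (ℕ × ℕ) → Bool) :
    withT L Ps k = k (Ps.map fun P => (accL L P, accH L P)) := by
  induction Ps generalizing k with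
  | nil => rfl
  | cons P Ps ih =>
    have e : withT L (P :: Ps) k = force (accL L P) fun a => force (accH L P) fun b =>
      withT L Ps fun ts => k ((a, b) :: ts) := rfl
    rw [e, force_eq, force_eq, ih]
    rfl

/-- `ws = [P v, P (P v), ...]` -/
noncomputable def stepsB (P : ℕ) (ws : List ℕ) : ℕ → Bool :=
  List.rec (fun _ => true) (fun u _ ih v => band (stepB P v u) (ih u)) ws

/-- the check of a chain: vector, number, images -/
noncomputable def chkC (Q : List (ℕ × ℕ)) (P : ℕ) (L : List (ℕ × ℕ × List ℕ)) : List ℕ → Bool :=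
  List.rec (fun Fx => withT CO Fx fun lt => Nat.beq (SS 0 FULL lt) 1)
    (fun s _ ih Fx => band (Nat.blt s.1 4096) (band (stepsB P s.2.2 s.1)
      (band (withT CO Fx fun lt => force (SS s.1 (SS s.1 FULL lt) Q) fun S => cntB (tb S) 4096 s.2.1)
        (ih (s.1 :: (s.2.2 ++ Fx)))))) L

/-- the bound -/
def bnd (L : List (ℕ × ℕ × List ℕ)) : ℕ := (L.map fun s => s.2.1).prod

/-! ### groups -/

section grp

variable {G α : Type*} [Group G] [Finite G] [MulAction G α]

theorem card_le_act (C : Subgroup G) (a : α) {m : ℕ} (S : Finset α) (hS : S.card ≤ m) (h : ∀ c ∈ C, c • a ∈ S) :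
    Nat.card C ≤ m * Nat.card ↥(C ⊓ MulAction.stabilizer G a) := by
  classical
  have h1 := Nat.card_congr (MulAction.orbitProdStabilizerEquivGroup C a)
  rw [Nat.card_prod] at h1
  have h2 : Nat.card (MulAction.orbit C a) ≤ m := by
    refine le_trans ?_ hS
    have h3 : MulAction.orbit C a ⊆ (S : Set α) := by
      rintro _ ⟨c, rfl⟩
      exact h c c.2
    have h4 := Nat.card_mono S.finite_toSet h3
    rw [Nat.card_eq_fintype_card (α := ↥(S : Set α))] at h4
    simpa using h4
  have h3 : Nat.card (MulAction.stabilizer C a) ≤ Nat.card ↥(C ⊓ MulAction.stabilizer G a) := by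
    refine Nat.card_le_card_of_injective (fun c : MulAction.stabilizer C a =>
      (⟨(c : C), (c : C).2, c.2⟩ : ↥(C ⊓ MulAction.stabilizer G a))) ?_
    intro c d hcd
    have h5 : (((c : C) : G)) = ((d : C) : G) :=
      congrArg (fun x : ↥(C ⊓ MulAction.stabilizer G a) => (x : G)) hcd
    exact Subtype.ext (Subtype.ext h5)
  rw [← h1]
  exact Nat.mul_le_mul h2 h3

end grp

section herm

variable {F : Type*} [Field F] [Fintype F] {w : F}

/-- the action on vectors -/
@[reducible] def actGU : MulAction (GU 6 F 2) (Fin 6 → F) where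
  smul A v := gm A *ᵥ v
  one_smul v := by
    show gm (1 : GU 6 F 2) *ᵥ v = v
    rw [gm_one, one_mulVec]
  mul_smul A B v := by
    show gm (A * B) *ᵥ v = gm A *ᵥ (gm B *ᵥ v)
    rw [gm_mul, mulVec_mulVec]

/-- the stabilizer of a vector -/
def stab (v : Fin 6 → F) : Subgroup (GU 6 F 2) := @MulAction.stabilizer (GU 6 F 2) (Fin 6 → F) _ actGU v

theorem mem_stab {v : Fin 6 → F} {c : GU 6 F 2} : c ∈ stab v ↔ gm c *ᵥ v = v := Iff.rfl

theorem card_le_gm (C : Subgroup (GU 6 F 2)) (a : Fin 6 → F) {m : ℕ} (S : Finset (Fin 6 → F)) (hS : S.card ≤ m)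
    (h : ∀ c ∈ C, gm c *ᵥ a ∈ S) : Nat.card C ≤ m * Nat.card ↥(C ⊓ stab a) := by
  have hfin : Finite (GU 6 F 2) := Finite.of_injective gm fun A B h => gm_inj h
  exact @card_le_act (GU 6 F 2) (Fin 6 → F) _ _ actGU C a m S hS h

theorem stepsB_spec (h2 : (2 : F) = 0) (hw : w ^ 2 + w + 1 = 0) {P : ℕ} {C : Subgroup (GU 6 F 2)}
    (hx : ∀ c ∈ C, gm c * mt w P = mt w P * gm c) {ws : List ℕ} {v : ℕ} (h : stepsB P ws v = true)
    {c : GU 6 F 2} (hc : c ∈ C) (hv : gm c *ᵥ vec w v = vec w v) : ∀ u ∈ ws, gm c *ᵥ vec w u = vec w u := by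
  induction ws generalizing v with
  | nil => intro u hu; exact absurd hu (by simp)
  | cons u ws ih =>
    have e : stepsB P (u :: ws) v = band (stepB P v u) (stepsB P ws u) := rfl
    rw [e, band_eq_true] at h
    have h1 : gm c *ᵥ vec w u = vec w u := by
      rw [stepB_eq h2 hw h.1, mulVec_mulVec, hx c hc, ← mulVec_mulVec, hv]
    intro u' hu'
    rcases List.mem_cons.1 hu' with rfl | hu'
    · exact h1
    · exact ih h.2 h1 u' hu'

theorem card_le_of_chk (hc4 : ∀ x : F, x ^ 4 = x) (h2 : (2 : F) = 0) (hw : w ^ 2 + w + 1 = 0) {Q : List (ℕ × ℕ)}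
    {P : ℕ} (L : List (ℕ × ℕ × List ℕ)) : ∀ (C : Subgroup (GU 6 F 2)) (Fx : List ℕ),
    (∀ c ∈ C, gm c * mt w P = mt w P * gm c) →
    (∀ t ∈ Q, ∃ f : (Fin 6 → F) → F, Rep w t.1 t.2 f ∧ ∀ c ∈ C, ∀ v, f (gm c *ᵥ v) = f v) →
    (∀ c ∈ C, ∀ u ∈ Fx, gm c *ᵥ vec w u = vec w u) → chkC Q P L Fx = true → Nat.card C ≤ bnd L := by
  classical
  have hfin : Finite (GU 6 F 2) := Finite.of_injective gm fun A B h => gm_inj h
  induction L with
  | nil =>
    intro C Fx hx hQ hFx h
    have e : chkC Q P [] Fx = withT CO Fx fun lt => Nat.beq (SS 0 FULL lt) 1 := rfl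
    rw [e, withT_eq] at h
    have h1 := Nat.eq_of_beq_eq_true h
    have hC : C = ⊥ := by
      rw [eq_bot_iff]
      intro c hc
      rw [Subgroup.mem_bot]
      have h3 : ∀ v : Fin 6 → F, gm c *ᵥ v = v := by
        intro v
        obtain ⟨n, hn, hn2⟩ := vec_surj h2 hw hc4 (gm c *ᵥ v - v)
        have h4 : tb (SS 0 FULL (Fx.map fun P => (accL CO P, accH CO P))) n = true := by
          rw [tb_SS hn]
          refine ⟨tb_full hn, ?_⟩
          intro t ht
          obtain ⟨u, hu, rfl⟩ := List.mem_map.1 ht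
          have r := rep_vec h2 hw u
          have r1 := r n hn
          have r2 := r 0 (by norm_num)
          have h5 : hermForm 6 F 2 (vec w n) (vec w u) = 0 := by
            rw [hn2, herm_sub_left]
            conv_lhs => rw [← hFx c hc u hu]
            rw [hFx c hc u hu]
            have := herm_gm c v (vec w u)
            rw [hFx c hc u hu] at this
            rw [this, sub_self]
          have h6 : vec w 0 = (0 : Fin 6 → F) := by
            funext i
            rw [vec_apply, tb_zero, tb_zero]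
            simp [eb]
          have h7 : hermForm 6 F 2 (vec w 0) (vec w u) = 0 := by rw [h6, herm_zero_left]
          exact eb_inj h2 hw (r1.symm.trans ((h5.trans h7.symm).trans r2))
        rw [h1] at h4
        have h5 : n = 0 := by
          by_contra hne
          rw [tb_eq, Nat.testBit_one_eq_true_iff_self_eq_zero] at h4
          exact hne h4
        rw [h5] at hn2
        have h6 : vec w 0 = (0 : Fin 6 → F) := by
          funext i
          rw [vec_apply, tb_zero, tb_zero]
          simp [eb]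
        rw [h6] at hn2
        exact (sub_eq_zero.1 hn2.symm)
      apply gm_inj
      rw [gm_one]
      ext i j
      have := congrFun (h3 (Pi.single j 1)) i
      rw [Matrix.mulVec_single_one] at this
      rw [Matrix.col_apply] at this
      rw [this, Matrix.one_apply, Pi.single_apply]
    rw [hC]
    simp [bnd]
  | cons s L ih =>
    intro C Fx hx hQ hFx h
    have e : chkC Q P (s :: L) Fx = band (Nat.blt s.1 4096) (band (stepsB P s.2.2 s.1)
      (band (withT CO Fx fun lt => force (SS s.1 (SS s.1 FULL lt) Q) fun S => cntB (tb S) 4096 s.2.1)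
        (chkC Q P L (s.1 :: (s.2.2 ++ Fx))))) := rfl
    rw [e, band_eq_true, band_eq_true, band_eq_true, withT_eq, force_eq] at h
    obtain ⟨h1, h3, h4, h5⟩ := h
    have hs : s.1 < 4096 := by rwa [Nat.blt_eq] at h1
    have hcard := card_fin_of_cntB _ _ _ h4
    set T := (Finset.univ : Finset (Fin 4096)).filter fun i : Fin 4096 =>
      tb (SS s.1 (SS s.1 FULL (Fx.map fun P => (accL CO P, accH CO P))) Q) i = true with hT
    have hb : bnd (s :: L) = s.2.1 * bnd L := by simp [bnd]
    rw [hb]
    refine (card_le_gm C (vec w s.1) (T.image fun i : Fin 4096 => vec w i)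
      (Finset.card_image_le.trans (le_of_eq hcard)) ?_).trans (Nat.mul_le_mul_left _ ?_)
    · intro c hc
      obtain ⟨n, hn, hn2⟩ := vec_surj h2 hw hc4 (gm c *ᵥ vec w s.1)
      rw [Finset.mem_image]
      refine ⟨⟨n, hn⟩, ?_, hn2⟩
      rw [hT, Finset.mem_filter]
      refine ⟨Finset.mem_univ _, ?_⟩
      show tb _ n = true
      rw [tb_SS hn, tb_SS hn]
      refine ⟨⟨tb_full hn, ?_⟩, ?_⟩
      · intro t ht
        obtain ⟨u, hu, rfl⟩ := List.mem_map.1 ht
        have r := rep_vec h2 hw u
        have r1 := r n hn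
        have r2 := r s.1 hs
        have h6 : hermForm 6 F 2 (vec w n) (vec w u) = hermForm 6 F 2 (vec w s.1) (vec w u) := by
          rw [hn2]
          have := herm_gm c (vec w s.1) (vec w u)
          rwa [hFx c hc u hu] at this
        exact eb_inj h2 hw (r1.symm.trans (h6.trans r2))
      · intro t ht
        obtain ⟨f, hf, hfc⟩ := hQ t ht
        have r1 := hf n hn
        have r2 := hf s.1 hs
        have h6 : f (vec w n) = f (vec w s.1) := by rw [hn2, hfc c hc]
        exact eb_inj h2 hw (r1.symm.trans (h6.trans r2))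
    · refine ih (C ⊓ stab (vec w s.1)) _ (fun c hc => hx c hc.1) ?_ ?_ h5
      · intro t ht
        obtain ⟨f, hf, hfc⟩ := hQ t ht
        exact ⟨f, hf, fun c hc => hfc c hc.1⟩
      · intro c hc u hu
        have hv : gm c *ᵥ vec w s.1 = vec w s.1 := hc.2
        rcases List.mem_cons.1 hu with rfl | hu
        · exact hv
        · rcases List.mem_append.1 hu with hu | hu
          · exact stepsB_spec h2 hw hx h3 hc.1 hv u hu
          · exact hFx c hc.1 u hu

end herm

end Cfsg.Agent.H767.U6
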