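import Cfsg.Agent.H767.U6.Orb

/-!
# The records of the classes (helper767)
-/

set_option autoImplicit false
set_option linter.unusedSectionVars false
set_option maxRecDepth 100000

namespace Cfsg.Agent.H767.U6

open Cfsg Matrix Cfsg.Agent.SporadicA.PermTab Subgroup
open Cfsg.Agent.LieClassical.HermBasic Cfsg.Agent.ClassicalGeometry.PSUAutCount

/-- `l X_i` -/
structure Rec where
  /-- class -/
  i : ℕ
  /-- scalar -/
  l : ℕ
  /-- the powers -/
  p1 : ℕ
  p2 : ℕ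
  p3 : ℕ
  p4 : ℕ
  p5 : ℕ
  /-- chain -/
  L : List (ℕ × ℕ × List ℕ)
  /-- invariants -/
  j1 : ℕ
  j2 : ℕ
  j3 : ℕ
  j4 : ℕ

/-- the identity matrix -/
def pid : ℕ := 1180663682709764194305

/-- `Q = l P` -/
def smB (l P Q : ℕ) : Bool := allB (fun r => allB (fun c => Nat.beq (cd Q r c) (mulc l (cd P r c))) 6) 6

/-- number of `v` with `∑ conj (a_k) h (v, Y^k v) = c` -/
noncomputable def jnB (Q : List (ℕ × ℕ)) (a c j : ℕ) : Bool :=
  force (accL Q a) fun A => force (accH Q a) fun B =>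
    force (Nat.land (cond (tb c 0) A (Nat.xor FULL A)) (cond (tb c 1) B (Nat.xor FULL B))) fun S => cntB (tb S) 4096 j

/-- all powers -/
def Rec.Ps (r : Rec) : List ℕ := [pid, r.p1, r.p2, r.p3, r.p4, r.p5]

/-- the check -/
noncomputable def Rec.chk (r : Rec) : Bool :=
  band (Nat.blt r.i 40) (band (Nat.blt 0 r.l) (band (Nat.blt r.l 4) (band (smB r.l (XP.getD r.i 0) r.p1)
    (band (mulB r.p1 r.p1 r.p2) (band (mulB r.p1 r.p2 r.p3) (band (mulB r.p1 r.p3 r.p4) (band (mulB r.p1 r.p4 r.p5)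
      (band (uniB r.p1) (withT ML r.Ps fun Q => band (chkC Q r.p1 r.L []) (band (jnB Q 1264 0 r.j1)
        (band (jnB Q 1225 2 r.j2) (band (jnB Q 3178 2 r.j3) (jnB Q 3406 3 r.j4)))))))))))))

/-- the invariants -/
def Rec.J (r : Rec) : ℕ × ℕ × ℕ × ℕ := (r.j1, r.j2, r.j3, r.j4)

section herm

variable {F : Type*} [Field F] [Fintype F] {w : F}

/-- `h (v, Y^k v)`, `k < 6` -/
def qf (Y : Matrix (Fin 6) (Fin 6) F) : List ((Fin 6 → F) → F) :=
  [fun v => hermForm 6 F 2 v (1 *ᵥ v), fun v => hermForm 6 F 2 v (Y *ᵥ v), fun v => hermForm 6 F 2 v ((Y * Y) *ᵥ v),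
    fun v => hermForm 6 F 2 v ((Y * (Y * Y)) *ᵥ v), fun v => hermForm 6 F 2 v ((Y * (Y * (Y * Y))) *ᵥ v),
    fun v => hermForm 6 F 2 v ((Y * (Y * (Y * (Y * Y)))) *ᵥ v)]

/-- the invariant -/
noncomputable def inv (w : F) (Y : Matrix (Fin 6) (Fin 6) F) (a c : ℕ) : ℕ :=
  Nat.card {v : Fin 6 → F // comb w (qf Y) a v = d4 w c}

theorem comb_qf_conj {c : GU 6 F 2} {Y Z : Matrix (Fin 6) (Fin 6) F} (h : gm c * Y = Z * gm c) (a : ℕ) (v : Fin 6 → F) :
    comb w (qf Z) a (gm c *ᵥ v) = comb w (qf Y) a v := by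
  have key : ∀ A B : Matrix (Fin 6) (Fin 6) F, gm c * A = B * gm c →
      hermForm 6 F 2 (gm c *ᵥ v) (B *ᵥ (gm c *ᵥ v)) = hermForm 6 F 2 v (A *ᵥ v) := by
    intro A B hAB
    rw [mulVec_mulVec, ← hAB, ← mulVec_mulVec, herm_gm]
  have m : ∀ A B : Matrix (Fin 6) (Fin 6) F, gm c * A = B * gm c → gm c * (Y * A) = (Z * B) * gm c := by
    intro A B hAB
    rw [← Matrix.mul_assoc, h, Matrix.mul_assoc, hAB, Matrix.mul_assoc]
  have h0 : gm c * 1 = 1 * gm c := by rw [Matrix.mul_one, Matrix.one_mul]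
  unfold qf
  simp only [comb]
  rw [key _ _ h0, key _ _ h, key _ _ (m _ _ h), key _ _ (m _ _ (m _ _ h)), key _ _ (m _ _ (m _ _ (m _ _ h))),
    key _ _ (m _ _ (m _ _ (m _ _ (m _ _ h))))]

theorem inv_conj {c : GU 6 F 2} {Y Z : Matrix (Fin 6) (Fin 6) F} (h : gm c * Y = Z * gm c) (a k : ℕ) :
    inv w Y a k = inv w Z a k := by
  refine Nat.card_congr ⟨fun v => ⟨gm c *ᵥ v.1, ?_⟩, fun v => ⟨gm c⁻¹ *ᵥ v.1, ?_⟩, fun v => Subtype.ext ?_,
    fun v => Subtype.ext ?_⟩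
  · rw [comb_qf_conj h]; exact v.2
  · rw [← comb_qf_conj h, gm_mulVec_inv]; exact v.2
  · exact gm_inv_mulVec c v.1
  · exact gm_mulVec_inv c v.1

theorem vec_bij (hF : Fintype.card F = 2 ^ 2) (hc4 : ∀ x : F, x ^ 4 = x) (h2 : (2 : F) = 0)
    (hw : w ^ 2 + w + 1 = 0) : Function.Bijective fun i : Fin 4096 => vec w i := by
  rw [Fintype.bijective_iff_surjective_and_card]
  refine ⟨?_, ?_⟩
  · intro v
    obtain ⟨n, hn, hn2⟩ := vec_surj h2 hw hc4 v
    exact ⟨⟨n, hn⟩, hn2⟩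
  · rw [Fintype.card_fun, hF, Fintype.card_fin, Fintype.card_fin]
    norm_num

theorem jnB_spec (hF : Fintype.card F = 2 ^ 2) (hc4 : ∀ x : F, x ^ 4 = x) (h2 : (2 : F) = 0)
    (hw : w ^ 2 + w + 1 = 0) {Q : List (ℕ × ℕ)} {Y : Matrix (Fin 6) (Fin 6) F}
    (hQ : List.Forall₂ (fun t f => Rep w t.1 t.2 f) Q (qf Y)) {a c j : ℕ} (hc : c < 4) (h : jnB Q a c j = true) :
    inv w Y a c = j := by
  unfold jnB at h
  rw [force_eq, force_eq, force_eq] at h
  rw [← card_fin_of_cntB _ _ _ h]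
  have r := rep_acc h2 hw hQ a
  generalize accL Q a = A at *
  generalize accH Q a = B at *
  unfold inv
  rw [Nat.card_congr (Equiv.subtypeEquiv (Equiv.ofBijective _ (vec_bij hF hc4 h2 hw)) (q := fun v =>
    comb w (qf Y) a v = d4 w c) (p := fun i : Fin 4096 => comb w (qf Y) a (vec w i) = d4 w c) fun i => Iff.rfl).symm]
  classical
  rw [Nat.card_eq_fintype_card, Fintype.card_subtype]
  congr 1
  apply Finset.filter_congr
  intro i _
  rw [r i i.2, d4_eb hc, tb_land, Bool.and_eq_true]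
  have key : ∀ (b : Bool) (T : ℕ), tb (cond b T (Nat.xor FULL T)) i = true ↔ tb T i = b := by
    intro b T
    cases b
    · rw [cond_false, tb_xor, tb_full i.2, Bool.true_xor, Bool.not_eq_true']
    · rw [cond_true]
  rw [key, key]
  constructor
  · intro h
    exact eb_inj h2 hw h
  · rintro ⟨h3, h4⟩
    rw [h3, h4]

theorem smB_eq (h2 : (2 : F) = 0) (hw : w ^ 2 + w + 1 = 0) {l P Q : ℕ} (hl : l < 4) (h : smB l P Q = true) :
    mt w Q = d4 w l • mt w P := by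
  ext r c
  have h1 := Nat.eq_of_beq_eq_true ((allB_iff _ _).1 ((allB_iff _ _).1 h r r.2) c c.2)
  show d4 w (cd Q r c) = d4 w l * d4 w (cd P r c)
  rw [h1, d4_mulc h2 hw hl (cd_lt P r c)]

theorem mt_pid : mt w pid = (1 : Matrix (Fin 6) (Fin 6) F) := by
  have h : ∀ r c : Fin 6, cd pid r c = if r = c then 1 else 0 := by decide +kernel
  ext r c
  show d4 w (cd pid r c) = _
  rw [h, Matrix.one_apply]
  by_cases hrc : r = c
  · rw [if_pos hrc, if_pos hrc]; rfl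
  · rw [if_neg hrc, if_neg hrc]; rfl

/-- the isometries from their matrices -/
theorem exists_gu (h2 : (2 : F) = 0) {A : Matrix (Fin 6) (Fin 6) F}
    (h : ∀ r c : Fin 6, ∑ k : Fin 6, A r k * A c k ^ 2 = if r = c then 1 else 0) (hF : Fintype.card F = 2 ^ 2)
    (hc4 : ∀ x : F, x ^ 4 = x) : ∃ g : GU 6 F 2, gm g = A := by
  -- `A A^* = 1`, so `A^* A = 1`
  let B : Matrix (Fin 6) (Fin 6) F := fun i j => A j i ^ 2
  have h1 : A * B = 1 := by
    ext r c
    rw [Matrix.mul_apply, Matrix.one_apply]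
    exact h r c
  have h3 : B * A = 1 := mul_eq_one_comm.1 h1
  have h4 : ∀ i j : Fin 6, ∑ k : Fin 6, A k i * A k j ^ 2 = if i = j then 1 else 0 := by
    intro i j
    have h5 : (B * A) i j = if i = j then 1 else 0 := by rw [h3, Matrix.one_apply]
    rw [Matrix.mul_apply] at h5
    have h6 : (∑ k : Fin 6, B i k * A k j) ^ 2 = ∑ k : Fin 6, A k i * A k j ^ 2 := by
      rw [Fin.sum_univ_six, Fin.sum_univ_six, sq_add h2, sq_add h2, sq_add h2, sq_add h2, sq_add h2]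
      simp only [mul_pow, B, ← pow_mul]
      norm_num
      simp only [hc4]
    rw [← h6, h5]
    split <;> norm_num
  have iso : ∀ u v : Fin 6 → F, hermForm 6 F 2 (A *ᵥ u) (A *ᵥ v) = hermForm 6 F 2 u v := by
    intro u v
    have hsum : ∀ k : Fin 6, (A *ᵥ v) k ^ 2 = ∑ j : Fin 6, A k j ^ 2 * v j ^ 2 := by
      intro k
      show (∑ j, A k j * v j) ^ 2 = _
      rw [Fin.sum_univ_six, Fin.sum_univ_six, sq_add h2, sq_add h2, sq_add h2, sq_add h2, sq_add h2]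
      simp only [mul_pow]
    calc hermForm 6 F 2 (A *ᵥ u) (A *ᵥ v) = ∑ k, (∑ i, A k i * u i) * (∑ j, A k j ^ 2 * v j ^ 2) := by
          rw [herm_def]
          refine Finset.sum_congr rfl fun k _ => ?_
          rw [hsum]
          rfl
      _ = ∑ k, ∑ i, ∑ j, (u i * v j ^ 2) * (A k i * A k j ^ 2) := by
          refine Finset.sum_congr rfl fun k _ => ?_
          rw [Finset.sum_mul_sum]
          refine Finset.sum_congr rfl fun i _ => Finset.sum_congr rfl fun j _ => ?_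
          ring
      _ = ∑ i, ∑ j, (u i * v j ^ 2) * ∑ k, (A k i * A k j ^ 2) := by
          rw [Finset.sum_comm]
          refine Finset.sum_congr rfl fun i _ => ?_
          rw [Finset.sum_comm]
          refine Finset.sum_congr rfl fun j _ => ?_
          rw [Finset.mul_sum]
      _ = hermForm 6 F 2 u v := by
          rw [herm_def]
          refine Finset.sum_congr rfl fun i _ => ?_
          simp only [h4, mul_ite, mul_one, mul_zero, Finset.sum_ite_eq, Finset.mem_univ, if_true]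
  exact ⟨⟨⟨A, B, h1, h3⟩, iso⟩, rfl⟩

/-- **What a record gives.** -/
theorem Rec.spec (hF : Fintype.card F = 2 ^ 2) (hc4 : ∀ x : F, x ^ 4 = x) (h2 : (2 : F) = 0)
    (hw : w ^ 2 + w + 1 = 0) {r : Rec} (h : r.chk = true) : ∃ g : GU 6 F 2, gm g = mt w r.p1 ∧ r.i < 40 ∧ 0 < r.l ∧
      r.l < 4 ∧ mt w r.p1 = d4 w r.l • X w r.i ∧ Nat.card ↥(centralizer ({g} : Set (GU 6 F 2))) ≤ bnd r.L ∧
      inv w (gm g) 1264 0 = r.j1 ∧ inv w (gm g) 1225 2 = r.j2 ∧ inv w (gm g) 3178 2 = r.j3 ∧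
      inv w (gm g) 3406 3 = r.j4 := by
  unfold Rec.chk at h
  rw [band_eq_true, band_eq_true, band_eq_true, band_eq_true, band_eq_true, band_eq_true, band_eq_true, band_eq_true,
    band_eq_true, withT_eq, band_eq_true, band_eq_true, band_eq_true, band_eq_true] at h
  obtain ⟨e1, e2, e3, e4, e5, e6, e7, e8, e9, e10, e11, e12, e13, e14⟩ := h
  rw [Nat.blt_eq] at e1 e2 e3
  obtain ⟨g, hg⟩ := exists_gu h2 (fun r' c => uniB_eq h2 hw e9 r' c) hF hc4
  have m2 := mulB_eq h2 hw e5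
  have m3 := mulB_eq h2 hw e6
  have m4 := mulB_eq h2 hw e7
  have m5 := mulB_eq h2 hw e8
  have hQ : List.Forall₂ (fun t f => Rep w t.1 t.2 f) (r.Ps.map fun P => (accL ML P, accH ML P)) (qf (gm g)) := by
    have f0 := rep_mat h2 hw pid
    have f1 := rep_mat h2 hw r.p1
    have f2 := rep_mat h2 hw r.p2
    have f3 := rep_mat h2 hw r.p3
    have f4 := rep_mat h2 hw r.p4
    have f5 := rep_mat h2 hw r.p5
    rw [← m5, ← m4, ← m3, ← m2, ← hg] at f5
    rw [← m4, ← m3, ← m2, ← hg] at f4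
    rw [← m3, ← m2, ← hg] at f3
    rw [← m2, ← hg] at f2
    rw [← hg] at f1
    rw [mt_pid] at f0
    exact .cons f0 (.cons f1 (.cons f2 (.cons f3 (.cons f4 (.cons f5 .nil)))))
  refine ⟨g, hg, e1, e2, e3, smB_eq h2 hw e3 e4, ?_, jnB_spec hF hc4 h2 hw hQ (by norm_num) e11,
    jnB_spec hF hc4 h2 hw hQ (by norm_num) e12, jnB_spec hF hc4 h2 hw hQ (by norm_num) e13,
    jnB_spec hF hc4 h2 hw hQ (by norm_num) e14⟩
  have hcm : ∀ c ∈ centralizer ({g} : Set (GU 6 F 2)), gm c * gm g = gm g * gm c := by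
    intro c hc
    have h1 := mem_centralizer_singleton_iff.1 hc
    rw [← gm_mul, ← gm_mul, h1]
  refine card_le_of_chk hc4 h2 hw r.L _ [] (P := r.p1) (fun c hc => by rw [← hg]; exact hcm c hc) ?_
    (fun c _ u hu => absurd hu (by simp)) e10
  intro t ht
  have key : ∀ (Q : List (ℕ × ℕ)) (fs : List ((Fin 6 → F) → F)),
      List.Forall₂ (fun t f => Rep w t.1 t.2 f) Q fs → (∀ f ∈ fs, ∀ c ∈ centralizer ({g} : Set (GU 6 F 2)), ∀ v,
        f (gm c *ᵥ v) = f v) → ∀ t ∈ Q, ∃ f : (Fin 6 → F) → F, Rep w t.1 t.2 f ∧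
        ∀ c ∈ centralizer ({g} : Set (GU 6 F 2)), ∀ v, f (gm c *ᵥ v) = f v := by
    intro Q fs hQf
    induction hQf with
    | nil => intro _ t ht; exact absurd ht (by simp)
    | @cons t f Q fs htf _ ih =>
      intro hf t' ht'
      rcases List.mem_cons.1 ht' with rfl | ht'
      · exact ⟨f, htf, hf f List.mem_cons_self⟩
      · exact ih (fun f' hf' => hf f' (List.mem_cons_of_mem _ hf')) t' ht'
  refine key _ _ hQ ?_ t ht
  intro f hf c hc v
  have hc1 := hcm c hc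
  have k1 : ∀ A : Matrix (Fin 6) (Fin 6) F, gm c * A = A * gm c →
      hermForm 6 F 2 (gm c *ᵥ v) (A *ᵥ (gm c *ᵥ v)) = hermForm 6 F 2 v (A *ᵥ v) := by
    intro A hA
    rw [mulVec_mulVec, ← hA, ← mulVec_mulVec, herm_gm]
  have k2 : ∀ A : Matrix (Fin 6) (Fin 6) F, gm c * A = A * gm c → gm c * (gm g * A) = (gm g * A) * gm c := by
    intro A hA
    rw [← Matrix.mul_assoc, hc1, Matrix.mul_assoc, hA, Matrix.mul_assoc]
  unfold qf at hf
  simp only [List.mem_cons, List.not_mem_nil, or_false] at hf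
  rcases hf with rfl | rfl | rfl | rfl | rfl | rfl
  · exact k1 1 (by rw [Matrix.mul_one, Matrix.one_mul])
  · exact k1 _ hc1
  · exact k1 _ (k2 _ hc1)
  · exact k1 _ (k2 _ (k2 _ hc1))
  · exact k1 _ (k2 _ (k2 _ (k2 _ hc1)))
  · exact k1 _ (k2 _ (k2 _ (k2 _ (k2 _ hc1))))

end herm

end Cfsg.Agent.H767.U6
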